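import Mathlib

/-!
# Arithmetic for groups with an element of order four with centralizer of order four

Pure integer consequences of the character relations of a group with dihedral Sylow 2-subgroups of
order eight and a self-centralizing element of order four.
-/

set_option autoImplicit false

namespace Cfsg.Agent.H69.Small4

/-- The consequences of the three class equations. -/
theorem derive {g a b e d₂ d₃ N h α β : ℤ} (ha : 0 < a) (hb : 0 < b) (hh : h ≠ 0)
    (he : e = 1 + 8 * h) (hd₂ : d₂ = 4 * α - 1) (hd₃ : d₃ = 4 * β - 1)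
    (hrel : 1 + e + d₂ + d₃ = 0)
    (hE : g * (1 + e) * (d₂ * d₃ - e) = 256 * a ^ 2 * b ^ 2 * (e * (d₂ * d₃)))
    (hN : g * (1 + e) * (d₂ * d₃ + e) = 32 * a * b * N * (e * (d₂ * d₃)))
    (hF : g * (e - 1) ^ 2 = 64 * a * b * (a + b) ^ 2 * (e * (e + 1))) :
    ∃ μ : ℤ, a + b = μ * (α + β) ∧
      a * b * ((4 * α - 1) * (4 * β - 1)) = μ ^ 2 * (2 * (α + β) - 1) ^ 2 * (α * β) ∧
      g * (α + β) ^ 2 = 4 * a * b * (a + b) ^ 2 * ((1 - 4 * (α + β)) * (2 - 4 * (α + β))) := by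
  have hT : α + β = -(2 * h) := by omega
  have he0 : e ≠ 0 := by omega
  have hu0 : 1 + e ≠ 0 := by omega
  have hP0 : d₂ * d₃ ≠ 0 := mul_ne_zero (by omega) (by omega)
  have hab : a * b ≠ 0 := mul_ne_zero ha.ne' hb.ne'
  have h1 : g * (1 + e) = 16 * a * b * e * (N + 8 * a * b) := by
    have : (g * (1 + e) - 16 * a * b * e * (N + 8 * a * b)) * (2 * (d₂ * d₃)) = 0 := by
      linear_combination hE + hN
    rcases mul_eq_zero.1 this with h' | h'
    · linarith
    · omega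
  have h2 : (N + 8 * a * b) * (e - 1) ^ 2 = 4 * (a + b) ^ 2 * (1 + e) ^ 2 := by
    have : ((N + 8 * a * b) * (e - 1) ^ 2 - 4 * (a + b) ^ 2 * (1 + e) ^ 2) * (16 * (a * b) * e) = 0 := by
      linear_combination (1 + e) * hF - (e - 1) ^ 2 * h1
    rcases mul_eq_zero.1 this with h' | h'
    · linarith
    · rcases mul_eq_zero.1 h' with h' | h'
      · omega
      · exact absurd h' he0
  subst he
  have h3 : (2 * h) ^ 2 ∣ ((a + b) * (4 * h + 1)) ^ 2 :=
    ⟨N + 8 * a * b, by linarith⟩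
  rw [Int.pow_dvd_pow_iff two_ne_zero] at h3
  have hco : IsCoprime (2 * h) (4 * h + 1) := ⟨-2, 1, by ring⟩
  obtain ⟨μ₀, hμ₀⟩ := hco.dvd_of_dvd_mul_right h3
  have hμ : a + b = -μ₀ * (α + β) := by rw [hT, hμ₀]; ring
  refine ⟨-μ₀, hμ, ?_, ?_⟩
  · have h4 : 4 * a * b * (d₂ * d₃) * (64 * h ^ 2) =
        (a + b) ^ 2 * (2 + 8 * h) ^ 2 * (d₂ * d₃ - (1 + 8 * h)) := by
      have : (4 * a * b * (d₂ * d₃) * (64 * h ^ 2) -
          (a + b) ^ 2 * (2 + 8 * h) ^ 2 * (d₂ * d₃ - (1 + 8 * h))) *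
            (64 * (a * b) * (1 + 8 * h)) = 0 := by
        linear_combination (2 + 8 * h) * (d₂ * d₃ - (1 + 8 * h)) * hF - (64 * h ^ 2) * hE
      rcases mul_eq_zero.1 this with h' | h'
      · linarith
      · rcases mul_eq_zero.1 h' with h' | h'
        · omega
        · omega
    have h5 : d₂ * d₃ - (1 + 8 * h) = 16 * (α * β) := by
      subst hd₂ hd₃
      linear_combination (-4 : ℤ) * hT
    rw [h5, hμ₀] at h4
    subst hd₂ hd₃
    have : (a * b * ((4 * α - 1) * (4 * β - 1)) -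
        (-μ₀) ^ 2 * (2 * (α + β) - 1) ^ 2 * (α * β)) * (256 * h ^ 2) = 0 := by
      rw [hT]
      linear_combination h4
    rcases mul_eq_zero.1 this with h' | h'
    · linarith
    · simp [hh] at h'
  · rw [hT]
    have : (g * (-(2 * h)) ^ 2 - 4 * a * b * (a + b) ^ 2 *
        ((1 - 4 * -(2 * h)) * (2 - 4 * -(2 * h)))) * 16 = 0 := by
      linear_combination hF
    omega

/-- The case in which one of the two factors of the core is trivial. -/
theorem case_one {a α β μ : ℤ} (ha : 1 < a) (hao : Odd a) (hα : Odd α) (hβ : Odd β)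
    (hμ : a + 1 = μ * (α + β))
    (heq : a * ((4 * α - 1) * (4 * β - 1)) = μ ^ 2 * (2 * (α + β) - 1) ^ 2 * (α * β)) :
    (a = 3 ∧ α + β = 4) ∨ (a = 5 ∧ α + β = 2) := by
  obtain ⟨T, hT⟩ : ∃ T, α + β = T := ⟨_, rfl⟩
  obtain ⟨q, hq⟩ : ∃ q, α * β = q := ⟨_, rfl⟩
  rw [hT] at hμ ⊢
  have hP : (4 * α - 1) * (4 * β - 1) = 16 * q - 4 * T + 1 := by
    rw [← hq, ← hT]; ring
  rw [hP, hT, hq] at heq
  have hsq : (α - β) ^ 2 = T ^ 2 - 4 * q := by rw [← hq, ← hT]; ring
  have hTev : Even T := hT ▸ hα.add_odd hβ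
  obtain ⟨k, hk⟩ : ∃ k, k = |T| := ⟨_, rfl⟩
  obtain ⟨l, hl⟩ : ∃ l, l = |μ| := ⟨_, rfl⟩
  have hkl : l * k = a + 1 := by rw [hk, hl, ← abs_mul, ← hμ, abs_of_nonneg (by omega)]
  have hkpos : 2 ≤ k := by
    have : T ≠ 0 := by rintro rfl; omega
    obtain ⟨c, hc⟩ := hTev
    rcases abs_cases T with ⟨h1, h2⟩ | ⟨h1, h2⟩ <;> omega
  have hlpos : 1 ≤ l := by
    have : μ ≠ 0 := by rintro rfl; omega
    have := abs_pos.2 this
    omega
  -- lower bound for the product
  have hqlow : k - 1 ≤ |q| := by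
    rw [← hq, abs_mul, hk, ← hT]
    have h1 : 1 ≤ |α| := Int.one_le_abs (by rintro rfl; simp at hα)
    have h2 : 1 ≤ |β| := Int.one_le_abs (by rintro rfl; simp at hβ)
    nlinarith [abs_add_le α β, mul_nonneg (by omega : (0 : ℤ) ≤ |α| - 1) (by omega : (0 : ℤ) ≤ |β| - 1)]
  have hD : q * (μ ^ 2 * (2 * T - 1) ^ 2 - 16 * a) = a * (1 - 4 * T) := by linear_combination -heq
  have hbound : ¬ (8 ≤ k ∨ 6 ≤ l) := by
    intro hcase
    set M := l * (2 * k - 1) ^ 2 - 16 * k with hM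
    have hk0 : (0 : ℤ) ≤ k - 1 := by omega
    have hM1 : k * (4 * k + 1) < (k - 1) * M ∧ 0 < M := by
      rcases hcase with h | h
      · obtain ⟨t, ht, htk⟩ : ∃ t, 0 ≤ t ∧ k = 8 + t := ⟨k - 8, by omega, by omega⟩
        have h1 : (2 * k - 1) ^ 2 - 16 * k ≤ M := by
          rw [hM]
          linarith only [le_mul_of_one_le_left (sq_nonneg (2 * k - 1)) hlpos]
        have h2 := mul_le_mul_of_nonneg_left h1 hk0
        subst htk
        constructor
        · nlinarith only [h2, ht, mul_nonneg ht ht, mul_nonneg (mul_nonneg ht ht) ht]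
        · nlinarith only [h1, ht, mul_nonneg ht ht]
      · obtain ⟨t, ht, htk⟩ : ∃ t, 0 ≤ t ∧ k = 2 + t := ⟨k - 2, by omega, by omega⟩
        have h1 : 6 * (2 * k - 1) ^ 2 - 16 * k ≤ M := by
          rw [hM]
          linarith only [mul_le_mul_of_nonneg_right h (sq_nonneg (2 * k - 1))]
        have h2 := mul_le_mul_of_nonneg_left h1 hk0
        subst htk
        constructor
        · nlinarith only [h2, ht, mul_nonneg ht ht, mul_nonneg (mul_nonneg ht ht) ht]
        · nlinarith only [h1, ht, mul_nonneg ht ht]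
    have hDlow : l * M < μ ^ 2 * (2 * T - 1) ^ 2 - 16 * a := by
      have h1 : (2 * k - 1) ^ 2 ≤ (2 * T - 1) ^ 2 := by
        rw [hk]
        rcases abs_cases T with ⟨h1, -⟩ | ⟨h1, h2⟩ <;> rw [h1]
        linarith only [h2]
      have h2 := mul_le_mul_of_nonneg_left h1 (sq_nonneg l)
      have h3 : l ^ 2 = μ ^ 2 := by rw [hl, sq_abs]
      rw [h3] at h2
      rw [hM]
      linarith only [h2, hkl,
        show l * (l * (2 * k - 1) ^ 2 - 16 * k) = μ ^ 2 * (2 * k - 1) ^ 2 - 16 * (l * k) by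
          rw [← h3]; ring]
    have hlM : 0 ≤ l * M := mul_nonneg (by omega) hM1.2.le
    have habs := congrArg abs hD
    rw [abs_mul, abs_mul, abs_of_pos (lt_of_le_of_lt hlM hDlow),
      abs_of_pos (by omega : (0 : ℤ) < a)] at habs
    have h4 : |1 - 4 * T| ≤ 4 * k + 1 := by
      rw [hk]
      rcases abs_cases T with ⟨h1, h2⟩ | ⟨h1, h2⟩ <;>
        rcases abs_cases (1 - 4 * T) with ⟨h3, h4⟩ | ⟨h3, h4⟩ <;> omega
    have h5 : (k - 1) * (l * M) ≤ a * (4 * k + 1) := by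
      refine le_trans (mul_le_mul hqlow hDlow.le hlM (abs_nonneg q)) ?_
      rw [habs]
      exact mul_le_mul_of_nonneg_left h4 (by omega)
    have h6 := mul_lt_mul_of_pos_left hM1.1 (by omega : (0 : ℤ) < l)
    have h7 : a * (4 * k + 1) < l * k * (4 * k + 1) :=
      mul_lt_mul_of_pos_right (by omega) (by omega)
    nlinarith only [h5, h6, h7]
  push Not at hbound
  obtain ⟨hk8, hl6⟩ := hbound
  rw [hk, abs_lt] at hk8
  rw [hl, abs_lt] at hl6
  obtain ⟨hk1, hk2⟩ := hk8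
  obtain ⟨hl1, hl2⟩ := hl6
  obtain ⟨c, rfl⟩ := hTev
  clear hqlow hkpos hlpos hkl hk hl hsq hD hP
  have hc1 : -3 ≤ c := by omega
  have hc2 : c ≤ 3 := by omega
  clear hT hq hk1 hk2
  obtain rfl : a = μ * (c + c) - 1 := by omega
  clear hμ
  interval_cases c <;> interval_cases μ
  all_goals try norm_num at ha
  all_goals try norm_num at heq
  all_goals omega

/-- The case in which the two factors have the same order. -/
theorem case_eq {a α β μ : ℤ} (ha : a ≠ 0) (hμ : a + a = μ * (α + β))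
    (heq : a * a * ((4 * α - 1) * (4 * β - 1)) = μ ^ 2 * (2 * (α + β) - 1) ^ 2 * (α * β)) :
    α = β ∧ a = μ * α := by
  have hμ0 : μ ≠ 0 := by rintro rfl; omega
  have h1 : ((α + β) ^ 2 - 4 * (α * β)) * ((1 - 4 * (α + β)) * μ ^ 2) = 0 := by
    linear_combination 4 * heq - (4 * α - 1) * (4 * β - 1) * (a + a + μ * (α + β)) * hμ
  have h2 : (1 - 4 * (α + β)) * μ ^ 2 ≠ 0 := mul_ne_zero (by omega) (pow_ne_zero 2 hμ0)
  have h3 : (α - β) ^ 2 = 0 := by linear_combination (mul_eq_zero.1 h1).resolve_right h2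
  have h4 : α = β := by linarith [pow_eq_zero_iff two_ne_zero |>.1 h3]
  subst h4
  exact ⟨rfl, by linarith⟩

/-- The index in the equal case. -/
theorem index_cases {m α : ℤ} (h : 3 * m * α ^ 2 = (8 * α - 1) * (4 * α - 1)) : m = 7 ∨ m = 15 := by
  have h1 : α * (32 * α - 12 - 3 * m * α) = -1 := by linear_combination -h
  rcases Int.eq_one_or_neg_one_of_mul_eq_neg_one h1 with rfl | rfl <;> omega

end Cfsg.Agent.H69.Small4
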