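import Mathlib
import Cfsg.Agent.H28.BrauerFowler

/-!
# Small-index subgroups in the exceptional numerical cases
-/

set_option autoImplicit false
set_option linter.style.haveILetI false

namespace Cfsg.Agent.H69.Small4

open Subgroup MulAction Cfsg.Agent

/-- A permutation group of degree 15 whose order is divisible by `3 ^ 6` contains a 3-cycle. -/
theorem exists_threeCycle_mem {α : Type*} [Fintype α] [DecidableEq α] (hα : Fintype.card α = 15)
    (H : Subgroup (Equiv.Perm α)) (hH : 3 ^ 6 ∣ Nat.card H) :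
    ∃ g ∈ H, Equiv.Perm.IsThreeCycle g := by
  haveI : Fact (Nat.Prime 3) := ⟨by norm_num⟩
  obtain ⟨Q, hQ⟩ := Sylow.exists_subgroup_card_pow_prime 3 hH
  obtain ⟨Q', hQQ'⟩ : ∃ Q' : Subgroup (Equiv.Perm α), Q' = Q.map H.subtype := ⟨_, rfl⟩
  have hQ' : Nat.card Q' = 3 ^ 6 := by
    rw [hQQ', Subgroup.card_map_of_injective H.subtype_injective, hQ]
  have hval : (Nat.card (Equiv.Perm α)).factorization 3 = 6 := by
    have h15 : (15).factorial = 3 ^ 6 * 1793792000 := by decide
    rw [Nat.card_perm, Nat.card_eq_fintype_card, hα, h15,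
      Nat.factorization_mul (by norm_num) (by norm_num), Finsupp.add_apply,
      Nat.Prime.factorization_pow (by norm_num : Nat.Prime 3), Finsupp.single_eq_same,
      Nat.factorization_eq_zero_of_not_dvd (by norm_num : ¬ 3 ∣ 1793792000)]
  let P : Sylow 3 (Equiv.Perm α) := Sylow.ofCard Q' (by rw [hQ', hval])
  -- some 3-cycle
  obtain ⟨a, b, c, hab, hac, hbc⟩ := Fintype.two_lt_card_iff.1 (by omega : 2 < Fintype.card α)
  obtain ⟨x, hx⟩ : ∃ x : Equiv.Perm α, x.IsThreeCycle :=
    ⟨_, Equiv.Perm.isThreeCycle_swap_mul_swap_same hab hac hbc⟩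
  have hxp : IsPGroup 3 (zpowers x) :=
    IsPGroup.of_card (n := 1) (by rw [Nat.card_zpowers, hx.orderOf, pow_one])
  obtain ⟨R, hR⟩ := hxp.exists_le_sylow
  obtain ⟨s, hs⟩ := exists_smul_eq (Equiv.Perm α) R P
  refine ⟨s * x * s⁻¹, ?_, ?_⟩
  · have h1 : s * x * s⁻¹ ∈ (P : Subgroup (Equiv.Perm α)) := by
      rw [← hs, Sylow.coe_subgroup_smul]
      exact ⟨x, hR (mem_zpowers x), by simp⟩
    have h2 : s * x * s⁻¹ ∈ Q' := h1
    rw [hQQ'] at h2
    exact map_subtype_le _ h2
  · rw [Equiv.Perm.IsThreeCycle, Equiv.Perm.cycleType_conj]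
    exact hx

variable {G : Type*} [Group G] [Finite G] [IsSimpleGroup G]

/-- No simple group of order `29160` has a subgroup of index `15`. -/
theorem no_index_fifteen (hg : Nat.card G = 29160) (Y : Subgroup G) (hY : Y.index = 15) : False := by
  classical
  haveI := Fintype.ofFinite (G ⧸ Y)
  have hcard : Fintype.card (G ⧸ Y) = 15 := by
    rw [← Nat.card_eq_fintype_card, ← Subgroup.index_eq_card, hY]
  have hne : Y ≠ ⊤ := fun h => by rw [h, Subgroup.index_top] at hY; omega
  have hco : IsCoatom Y := by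
    refine ⟨hne, fun M hM => ?_⟩
    by_contra hMt
    have h1 := H28.card_dvd_factorial_index hMt
    have h2 := Subgroup.relIndex_mul_index hM.le
    rw [hY] at h2
    have h3 : Y.relIndex M ≠ 1 := fun h => hM.ne (le_antisymm hM.le (relIndex_eq_one.1 h))
    have h4 : M.index ∣ 15 := ⟨_, by rw [mul_comm]; exact h2.symm⟩
    have h5 : M.index ≤ 5 := by
      have h6 := Nat.le_of_dvd (by norm_num) h4
      by_contra h7
      interval_cases h : M.index <;> omega
    have h6 := (h1.trans (Nat.factorial_dvd_factorial h5))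
    rw [hg] at h6
    norm_num at h6
  have hinj : Function.Injective (MulAction.toPermHom G (G ⧸ Y)) := by
    rw [← MonoidHom.ker_eq_bot_iff, ← Subgroup.normalCore_eq_ker]
    rcases (inferInstance : Y.normalCore.Normal).eq_bot_or_eq_top with e | e
    · exact e
    · exact absurd (top_le_iff.mp (e ▸ Y.normalCore_le)) hne
  haveI : Nontrivial (G ⧸ Y) := Fintype.one_lt_card_iff_nontrivial.1 (by omega)
  have hprim : IsPreprimitive G (G ⧸ Y) := by
    rw [← isCoatom_stabilizer_iff_preprimitive G ((1 : G) : G ⧸ Y), MulAction.stabilizer_quotient]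
    exact hco
  set H := (MulAction.toPermHom G (G ⧸ Y)).range
  have hHp : IsPreprimitive H (G ⧸ Y) := by
    let f : (G ⧸ Y) →ₑ[(MulAction.toPermHom G (G ⧸ Y)).rangeRestrict] (G ⧸ Y) :=
      { toFun := id, map_smul' := fun _ _ => rfl }
    haveI := hprim
    exact IsPreprimitive.of_surjective (f := f) Function.surjective_id
  have hH : Nat.card H = 29160 := by
    rw [← hg]
    exact (Nat.card_congr (MonoidHom.ofInjective hinj).toEquiv).symm
  obtain ⟨g, hgH, h3g⟩ := exists_threeCycle_mem hcard H (by rw [hH]; norm_num)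
  have hle := Equiv.Perm.alternatingGroup_le_of_isPreprimitive_of_isThreeCycle_mem hHp h3g hgH
  have h1 := Subgroup.card_le_of_le hle
  have h2 := two_mul_card_alternatingGroup (α := G ⧸ Y)
  rw [Fintype.card_perm, hcard, ← Nat.card_eq_fintype_card] at h2
  have h15 : (15).factorial = 1307674368000 := by decide
  omega

end Cfsg.Agent.H69.Small4
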