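import Cfsg.Agent.H69.Small4.Local

/-!
# The quotient of the extended centralizer of the fixed points
-/

set_option autoImplicit false
set_option linter.style.haveILetI false
set_option linter.unusedSectionVars false

namespace Cfsg.Agent.H69.Small4

open Cfsg.Agent Subgroup

variable {G : Type*} [Group G] [Finite G]

theorem card_centralizer_sub (Y : Subgroup G) (x : Y)
    (h : centralizer ({(x : G)} : Set G) ≤ Y) :
    Nat.card (centralizer ({x} : Set Y)) = Nat.card (centralizer ({(x : G)} : Set G)) := by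
  refine Nat.card_congr ⟨fun y => ⟨((y : Y) : G), mem_centralizer_singleton_iff.2
      (congrArg Subtype.val (mem_centralizer_singleton_iff.1 y.2))⟩,
    fun y => ⟨⟨y, h y.2⟩, mem_centralizer_singleton_iff.2
      (Subtype.ext (mem_centralizer_singleton_iff.1 y.2))⟩, fun _ => rfl, fun _ => rfl⟩

theorem card_centralizer_sub_dvd (Y : Subgroup G) (x : Y) :
    Nat.card (centralizer ({x} : Set Y)) ∣ Nat.card (centralizer ({(x : G)} : Set G)) := by
  refine Subgroup.card_dvd_of_injective (MonoidHom.mk' (fun y : centralizer ({x} : Set Y) =>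
    (⟨((y : Y) : G), mem_centralizer_singleton_iff.2
      (congrArg Subtype.val (mem_centralizer_singleton_iff.1 y.2))⟩ :
        centralizer ({(x : G)} : Set G))) fun _ _ => rfl) fun a b hab => ?_
  exact Subtype.ext (Subtype.ext (congrArg (fun z : centralizer ({(x : G)} : Set G) => (z : G)) hab))

namespace Config

variable {P : Sylow 2 G} {σ τ : G} {R : H56.CentRetr P (H56.centInv σ 3)} (C : Config P σ τ R)
include C

/-- What the extended centralizer of `A = C_K(τ)` yields when `A` is nontrivial. -/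
theorem local_data (ha : 1 < R.kap τ) :
    ∃ (Y : Subgroup G) (k N₂ gY : ℤ), Odd k ∧ 0 < N₂ ∧
      N₂ * k = 4 * (R.kap (σ * τ) : ℤ) ^ 2 * (2 * k + 1) ∧
      N₂ ∣ 8 * ((R.kap τ : ℤ) * R.kap (σ * τ)) ∧
      gY * k ^ 2 = 8 * (R.kap (σ * τ) : ℤ) ^ 3 * ((4 * k + 1) * (2 * k + 1)) ∧
      (Nat.card Y : ℤ) = gY * R.kap τ ∧
      Y ≤ normalizer ((R.K ⊓ centralizer ({τ} : Set G) : Subgroup G) : Set G) ∧
      centralizer ({σ ^ 2} : Set G) ≤ Y ∧
      (centralizer ((R.K ⊓ centralizer ({τ} : Set G) : Subgroup G) : Set G)).relIndex Y = 2 ∧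
      centralizer ((R.K ⊓ centralizer ({τ} : Set G) : Subgroup G) : Set G) ≤ Y := by
  classical
  set A : Subgroup G := R.K ⊓ centralizer ({τ} : Set G) with hA
  have hAK : ∀ a ∈ A, a ∈ R.K := fun a h => (mem_inf.1 h).1
  have hAodd : Odd (Nat.card A) := R.K_odd.of_dvd_nat (Subgroup.card_dvd_of_le inf_le_left)
  obtain ⟨a₀, ha₀, hne⟩ : ∃ a₀ ∈ A, a₀ ≠ 1 := by
    by_contra hno
    push Not at hno
    have : A = ⊥ := (eq_bot_iff_forall A).2 hno
    rw [H56.CentRetr.kap, ← hA, this, Subgroup.card_bot] at ha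
    omega
  have hne' : a₀ ≠ a₀⁻¹ := fun h =>
    hne (eq_one_of_sq_mem hAodd ha₀ (by nth_rewrite 2 [h]; exact mul_inv_cancel a₀))
  set Y := extCent A with hY
  have hτA : ∀ a ∈ A, τ * a * τ⁻¹ = a := fun a h => by
    rw [← (mem_centralizer_singleton_iff.1 (mem_inf.1 h).2), mul_inv_cancel_right]
  have hσA : ∀ a ∈ A, σ * a * σ⁻¹ = a⁻¹ := fun a h => C.inverts a (hAK a h)
  have hσY : σ ∈ Y := Or.inr hσA
  have hτY : τ ∈ Y := Or.inl hτA
  have hKY : R.K ≤ Y := fun k hk => Or.inl fun a h => by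
    rw [C.comm hk (hAK a h), mul_inv_cancel_right]
  have hPY : (P : Subgroup G) ≤ Y := fun p hp => by
    obtain ⟨i, rfl | rfl⟩ := C.D.forms p hp
    · exact pow_mem hσY i
    · exact mul_mem (pow_mem hσY i) hτY
  have hJY : centralizer ({σ ^ 2} : Set G) ≤ Y := fun x hx => by
    have hP := R.π_mem x hx
    have hk : (R.π x)⁻¹ * x ∈ R.K := by
      have h1 := inv_mem (C.D.le_centralizer hP)
      refine (R.π_ker _ (mul_mem h1 hx)).1 ?_
      rw [R.π_mul _ h1 _ hx, R.π_fix _ (inv_mem hP), inv_mul_cancel]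
    have := mul_mem (hPY hP) (hKY hk)
    rwa [mul_inv_cancel_left] at this
  have hAY : A ≤ Y := fun a h => hKY (hAK a h)
  have hYN : Y ≤ normalizer (A : Set G) := by
    intro y hy
    rw [mem_normalizer_iff]
    have key : ∀ z ∈ Y, ∀ a ∈ A, z * a * z⁻¹ ∈ A := by
      rintro z (hz | hz) a ha' <;> rw [hz a ha']
      · exact ha'
      · exact inv_mem ha'
    refine fun a => ⟨key y hy a, fun h => ?_⟩
    have := key y⁻¹ (inv_mem hy) _ h
    rwa [show y⁻¹ * (y * a * y⁻¹) * y⁻¹⁻¹ = a by group] at this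
  have hXY : centralizer (A : Set G) ≤ Y := fun x hx => Or.inl fun a h => by
    rw [← (mem_centralizer_iff.1 hx a h), mul_inv_cancel_right]
  obtain ⟨y₀, hy₀A, hy₀J⟩ := C.exists_move
  have hy₀Y : y₀ ∈ Y := Or.inl hy₀A
  -- the sign
  let φY := extSign A a₀ ha₀ hne'
  have hφ : ∀ x : Y, φY x = 1 ↔ (x : G) ∈ centralizer (A : Set G) := by
    intro x
    show (if _ then (1 : ℤˣ) else -1) = 1 ↔ _
    constructor
    · intro h
      split_ifs at h with h1
      · rw [mem_centralizer_iff]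
        intro a ha'
        rcases x.2 with hx | hx
        · conv_lhs => rw [← hx a ha']
          group
        · rw [hx a₀ ha₀] at h1
          exact absurd h1.symm hne'
      · exact absurd h (by decide)
    · intro h
      rw [if_pos]
      rw [← (mem_centralizer_iff.1 h a₀ ha₀), mul_inv_cancel_right]
  have hker : φY.ker = (centralizer (A : Set G)).subgroupOf Y := by
    ext x; rw [MonoidHom.mem_ker, mem_subgroupOf, hφ]
  have hφσ : φY ⟨σ, hσY⟩ = -1 := by
    show (if _ then (1 : ℤˣ) else -1) = -1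
    rw [if_neg]
    rw [hσA a₀ ha₀]
    exact hne'.symm
  have hrel2 : (centralizer (A : Set G)).relIndex Y = 2 := by
    rw [relIndex, ← hker, Subgroup.index_ker]
    have : φY.range = ⊤ := by
      rw [eq_top_iff]
      intro u _
      rcases Int.units_eq_one_or u with rfl | rfl
      · exact one_mem _
      · exact ⟨_, hφσ⟩
    rw [this, Subgroup.card_top]
    simp
  -- the quotient
  let A' : Subgroup Y := A.subgroupOf Y
  haveI hA'n : A'.Normal := ⟨fun a ha' y => by
    rw [mem_subgroupOf] at ha' ⊢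
    push_cast
    exact (mem_normalizer_iff.1 (hYN y.2) _).1 ha'⟩
  let f : Y →* Y ⧸ A' := QuotientGroup.mk' A'
  have hf : Function.Surjective f := QuotientGroup.mk'_surjective A'
  have hfone : ∀ x : Y, f x = 1 ↔ (x : G) ∈ A := fun x =>
    (QuotientGroup.eq_one_iff x).trans mem_subgroupOf
  have hA'card : Nat.card f.ker = R.kap τ := by
    rw [show f.ker = A' from QuotientGroup.ker_mk' A', H56.CentRetr.kap]
    exact Nat.card_congr (subgroupOfEquivOfLe hAY).toEquiv
  -- lifting centralizers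
  have hliftJ : ∀ x : Y, Commute (f x) (f ⟨σ ^ 2, pow_mem hσY 2⟩) →
      x ∈ centralizer ({(⟨σ ^ 2, pow_mem hσY 2⟩ : Y)} : Set Y) := by
    intro x hx
    obtain ⟨a, ha', hxa⟩ : ∃ a ∈ A, (x : G) * σ ^ 2 * (x : G)⁻¹ = σ ^ 2 * a := by
      refine ⟨(σ ^ 2)⁻¹ * ((x : G) * σ ^ 2 * (x : G)⁻¹), ?_, by group⟩
      have := (hfone (⟨σ ^ 2, pow_mem hσY 2⟩⁻¹ * (x * ⟨σ ^ 2, pow_mem hσY 2⟩ * x⁻¹))).1 (by
        rw [map_mul, map_mul, map_mul, map_inv, map_inv, hx.eq, mul_inv_cancel_right, inv_mul_cancel])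
      push_cast at this
      exact this
    have haJ : Commute a (σ ^ 2) := C.commute_J (hAK a ha')
    have hJ2 : σ ^ 2 * σ ^ 2 = 1 := H28.mul_self_of_orderOf_two (orderOf_sq C.D)
    have h2 : σ ^ 2 * a * (σ ^ 2 * a) = 1 := by
      rw [← hxa, show (x : G) * σ ^ 2 * (x : G)⁻¹ * ((x : G) * σ ^ 2 * (x : G)⁻¹) =
        (x : G) * (σ ^ 2 * σ ^ 2) * (x : G)⁻¹ by group, hJ2, mul_one, mul_inv_cancel]
    have ha1 : a = 1 := eq_one_of_sq_mem hAodd ha' (by
      rw [haJ.mul_mul_mul_comm, hJ2, one_mul] at h2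
      exact h2)
    rw [mem_centralizer_singleton_iff]
    refine Subtype.ext ?_
    push_cast
    rw [ha1, mul_one] at hxa
    exact mul_inv_eq_iff_eq_mul.1 hxa
  -- centralizers of elements inverting `A`
  have hliftinv : ∀ t : Y, (∀ a ∈ A, (t : G) * a * (t : G)⁻¹ = a⁻¹) →
      Nat.card (centralizer ({f t} : Set (Y ⧸ A'))) = Nat.card (centralizer ({t} : Set Y)) := by
    intro t ht
    rw [show centralizer ({f t} : Set (Y ⧸ A')) = (centralizer ({t} : Set Y)).map f from ?_]
    · refine card_map_of_inj f _ fun x hx hfx => Subtype.ext ?_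
      have hxA := (hfone x).1 hfx
      have h1 := congrArg Subtype.val (mem_centralizer_singleton_iff.1 hx)
      push_cast at h1
      have h2 := ht _ hxA
      rw [← h1, mul_inv_cancel_right] at h2
      exact eq_one_of_sq_mem hAodd hxA (by nth_rewrite 2 [h2]; rw [mul_inv_cancel])
    · refine le_antisymm (fun q hq => ?_) ?_
      · obtain ⟨x, rfl⟩ := hf q
        rw [mem_centralizer_singleton_iff] at hq
        obtain ⟨a, ha', hxa⟩ : ∃ a ∈ A, (x : G) * t * (x : G)⁻¹ = t * a := by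
          refine ⟨(t : G)⁻¹ * ((x : G) * t * (x : G)⁻¹), ?_, by group⟩
          have := (hfone (t⁻¹ * (x * t * x⁻¹))).1 (by
            rw [map_mul, map_mul, map_mul, map_inv, map_inv, hq, mul_inv_cancel_right,
              inv_mul_cancel])
          push_cast at this
          exact this
        obtain ⟨c, hc, hca⟩ := exists_sqrt hAodd ha'
        refine ⟨⟨c, hAY hc⟩ * x, mem_centralizer_singleton_iff.2 (Subtype.ext ?_), ?_⟩
        · push_cast
          have h2 : (t : G) * c = c⁻¹ * t := mul_inv_eq_iff_eq_mul.1 (ht c hc)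
          calc c * (x : G) * t = c * ((x : G) * t * (x : G)⁻¹) * x := by group
            _ = c * ((t : G) * c * c) * x := by rw [hxa, ← hca]; group
            _ = (t : G) * (c * x) := by rw [h2]; group
        · rw [map_mul, (hfone ⟨c, hAY hc⟩).2 hc, one_mul]
      · rintro _ ⟨x, hx, rfl⟩
        rw [mem_centralizer_singleton_iff, ← map_mul, ← map_mul,
          mem_centralizer_singleton_iff.1 hx]
  -- the dihedral Sylow subgroup of the quotient
  haveI : Fact (Nat.Prime 2) := ⟨Nat.prime_two⟩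
  let PY : Sylow 2 Y := P.subtype hPY
  let Pb : Sylow 2 (Y ⧸ A') := PY.mapSurjective hf
  let s : Y ⧸ A' := f ⟨σ, hσY⟩
  let t : Y ⧸ A' := f ⟨τ, hτY⟩
  have hPmem : ∀ x : Y, (x : G) ∈ (P : Subgroup G) → f x ∈ (Pb : Subgroup (Y ⧸ A')) := fun x hx =>
    Subgroup.mem_map_of_mem f hx
  have hsplit : ∀ x ∈ (P : Subgroup G), x ∈ A → x = 1 := by
    intro x hxP hxA
    obtain ⟨e, he⟩ := P.isPGroup' ⟨x, hxP⟩
    have he' : x ^ 2 ^ e = 1 := congrArg Subtype.val he
    refine orderOf_eq_one_iff.1 (Nat.eq_one_of_dvd_coprimes ?_ (orderOf_dvd_of_pow_eq_one he')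
      (?_ : orderOf x ∣ Nat.card A))
    · exact (Nat.coprime_two_left.2 hAodd).pow_left e
    · rw [← Subgroup.orderOf_mk x hxA]; exact orderOf_dvd_natCard _
  have hsq : f ⟨σ ^ 2, pow_mem hσY 2⟩ = s ^ 2 := by
    rw [← map_pow]; rfl
  have hs4 : orderOf s = 4 := by
    have h : orderOf s = 2 ^ (1 + 1) := by
      refine orderOf_eq_prime_pow ?_ ?_
      · rw [pow_one, ← hsq]
        intro h
        exact H28.ne_one_of_orderOf_two (orderOf_sq C.D)
          (hsplit _ (pow_mem C.D.memσ 2) ((hfone _).1 h))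
      · rw [← map_pow]
        have : (⟨σ, hσY⟩ : Y) ^ 2 ^ (1 + 1) = 1 := Subtype.ext (by
          push_cast
          exact orderOf_dvd_iff_pow_eq_one.1 (by rw [orderOf_sigma C.D]))
        rw [this, map_one]
    simpa using h
  have hnm : t ∉ zpowers s := by
    intro h
    obtain ⟨j, hj⟩ := mem_zpowers_iff.1 h
    have h1 : f ((⟨σ, hσY⟩ : Y) ^ (-j) * ⟨τ, hτY⟩) = 1 := by
      rw [map_mul, map_zpow, zpow_neg]
      show (s ^ j)⁻¹ * t = 1
      rw [hj, inv_mul_cancel]
    have h2 := (hfone _).1 h1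
    push_cast at h2
    have h3 := hsplit _ (mul_mem (zpow_mem C.D.memσ _) C.D.memτ) h2
    exact C.D.not_mem (by
      rw [mul_eq_one_iff_inv_eq] at h3
      rw [← h3]; exact inv_mem (zpow_mem (mem_zpowers σ) _))
  have Db : H56.DihSylow Pb s t 3 :=
    { two_le := by norm_num
      memσ := hPmem _ C.D.memσ
      memτ := hPmem _ C.D.memτ
      ordσ := hs4
      ordτ := H28.orderOf_two_of_mul_self (by
        rw [← map_mul]
        have : (⟨τ, hτY⟩ : Y) * ⟨τ, hτY⟩ = 1 := Subtype.ext C.D.tau_mul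
        rw [this, map_one]) fun h => hnm (h ▸ one_mem _)
      inv := by
        rw [← map_inv f, ← map_mul, ← map_mul, ← map_inv f]
        exact congrArg f (Subtype.ext C.D.inv)
      not_mem := hnm
      forms := by
        intro q hq
        obtain ⟨x, hx, rfl⟩ := Subgroup.mem_map.1 hq
        obtain ⟨i, hi | hi⟩ := C.D.forms _ hx
        · exact ⟨i, Or.inl (by rw [← map_pow]; exact congrArg f (Subtype.ext hi))⟩
        · exact ⟨i, Or.inr (by rw [← map_pow, ← map_mul]; exact congrArg f (Subtype.ext hi))⟩ }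
  haveI := Fintype.ofFinite (Y ⧸ A')
  obtain ⟨Rb⟩ := Db.exists_retr
  have hCb : Nat.card (centralizer ({s} : Set (Y ⧸ A'))) = 4 := by
    rw [hliftinv _ hσA, card_centralizer_sub Y ⟨σ, hσY⟩, C.cent]
    intro x hx
    refine hJY ?_
    rw [mem_centralizer_singleton_iff]
    exact (Commute.pow_right (mem_centralizer_singleton_iff.1 hx : Commute x σ) 2).eq
  have hφτ : φY ⟨τ, hτY⟩ = 1 := (hφ _).2 (mem_centralizer_iff.2 fun a ha' =>
    (mul_inv_eq_iff_eq_mul.1 (hτA a ha')).symm)
  have hA'le : A' ≤ φY.ker := by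
    intro x hx
    rw [MonoidHom.mem_ker, hφ, mem_centralizer_iff]
    exact fun a ha' => C.comm (hAK a ha') (hAK _ (mem_subgroupOf.1 hx))
  let φb : Y ⧸ A' →* ℤˣ := QuotientGroup.lift A' φY hA'le
  have hφbσ : φb s = -1 := hφσ
  have hφbτ : φb t = 1 := hφτ
  have h0b : IsConj (s ^ 2) t := by
    refine isConj_iff.2 ⟨f ⟨y₀, hy₀Y⟩, ?_⟩
    rw [← hsq, ← map_inv, ← map_mul, ← map_mul]
    exact congrArg f (Subtype.ext hy₀J)
  have hCJmap : centralizer ({f ⟨σ ^ 2, pow_mem hσY 2⟩} : Set (Y ⧸ A')) =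
      (centralizer ({(⟨σ ^ 2, pow_mem hσY 2⟩ : Y)} : Set Y)).map f := by
    refine le_antisymm (fun q hq => ?_) ?_
    · obtain ⟨x, rfl⟩ := hf q
      exact ⟨x, hliftJ x (mem_centralizer_singleton_iff.1 hq), rfl⟩
    · rintro _ ⟨x, hx, rfl⟩
      rw [mem_centralizer_singleton_iff, ← map_mul, ← map_mul,
        mem_centralizer_singleton_iff.1 hx]
  have hkerle : f.ker ≤ centralizer ({(⟨σ ^ 2, pow_mem hσY 2⟩ : Y)} : Set Y) := by
    intro x hx
    exact mem_centralizer_singleton_iff.2 (Subtype.ext (C.commute_J (hAK _ ((hfone x).1 hx))))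
  have hKb : Nat.card Rb.K = R.kap (σ * τ) := by
    have h1 := card_map_mul_card_ker f hf _ hkerle
    rw [← hCJmap, hsq, show s ^ 2 = H56.centInv s 3 from rfl, Db.card_centralizer Rb, hA'card,
      card_centralizer_sub Y ⟨σ ^ 2, pow_mem hσY 2⟩ hJY] at h1
    haveI := Fintype.ofFinite G
    have h2 := C.D.card_centralizer R
    change Nat.card (centralizer ({σ ^ 2} : Set G)) = _ at h2
    rw [h2, C.card_K, show 2 * 2 ^ (3 - 1) = 8 by norm_num] at h1
    refine Nat.eq_of_mul_eq_mul_right (by omega : 0 < R.kap τ) ?_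
    linarith
  have hkapb : Rb.kap t = 1 := by
    have h1 := Db.card_centralizer_pair Rb
    have h2 : centralizer ({H56.centInv s 3, t} : Set (Y ⧸ A')) =
        (centralizer ({(⟨σ ^ 2, pow_mem hσY 2⟩ : Y), ⟨τ, hτY⟩} : Set Y)).map f := by
      refine le_antisymm (fun q hq => ?_) ?_
      · obtain ⟨x, rfl⟩ := hf q
        simp only [mem_centralizer_iff, Set.mem_insert_iff, Set.mem_singleton_iff, forall_eq_or_imp,
          forall_eq] at hq
        obtain ⟨hq1, hq2⟩ := hq
        have hxJ := hliftJ x (by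
          rw [show H56.centInv s 3 = s ^ 2 from rfl, ← hsq] at hq1
          exact hq1.symm)
        refine ⟨x, ?_, rfl⟩
        simp only [SetLike.mem_coe, mem_centralizer_iff, Set.mem_insert_iff, Set.mem_singleton_iff,
          forall_eq_or_imp, forall_eq]
        refine ⟨(mem_centralizer_singleton_iff.1 hxJ).symm, ?_⟩
        have := (hfone (x⁻¹ * (⟨τ, hτY⟩ * x * (⟨τ, hτY⟩)⁻¹))).1 (by
          rw [map_mul, map_mul, map_mul, map_inv, map_inv, hq2, mul_inv_cancel_right, inv_mul_cancel])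
        push_cast at this
        obtain ⟨a, ha', hxa⟩ : ∃ a ∈ A, τ * (x : G) * τ⁻¹ = x * a := ⟨_, this, by group⟩
        have h3 : (x : G) = x * (a * a) := by
          calc (x : G) = τ * (τ * x * τ⁻¹) * τ⁻¹ := by
                rw [show τ * (τ * (x : G) * τ⁻¹) * τ⁻¹ = τ * τ * x * (τ * τ)⁻¹ by group, C.D.tau_mul]
                simp
            _ = τ * x * τ⁻¹ * (τ * a * τ⁻¹) := by
                rw [hxa, show τ * ((x : G) * a) * τ⁻¹ = τ * x * τ⁻¹ * (τ * a * τ⁻¹) by group, hxa]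
            _ = x * (a * a) := by rw [hxa, hτA a ha', mul_assoc]
        rw [eq_one_of_sq_mem hAodd ha' (mul_eq_left.1 h3.symm), mul_one] at hxa
        exact Subtype.ext (mul_inv_eq_iff_eq_mul.1 hxa)
      · rintro _ ⟨x, hx, rfl⟩
        simp only [SetLike.mem_coe, mem_centralizer_iff, Set.mem_insert_iff, Set.mem_singleton_iff,
          forall_eq_or_imp, forall_eq] at hx ⊢
        constructor
        · rw [show H56.centInv s 3 = s ^ 2 from rfl, ← hsq, ← map_mul, ← map_mul, hx.1]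
        · rw [← map_mul, ← map_mul, hx.2]
    have hkerle' : f.ker ≤ centralizer ({(⟨σ ^ 2, pow_mem hσY 2⟩ : Y), ⟨τ, hτY⟩} : Set Y) := by
      intro x hx
      have hxA := (hfone x).1 hx
      simp only [mem_centralizer_iff, Set.mem_insert_iff, Set.mem_singleton_iff, forall_eq_or_imp,
        forall_eq]
      exact ⟨Subtype.ext (C.commute_J (hAK _ hxA)).symm,
        Subtype.ext (mul_inv_eq_iff_eq_mul.1 (hτA _ hxA))⟩
    have h3 := card_map_mul_card_ker f hf _ hkerle'
    rw [← h2, h1, hA'card] at h3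
    have h4 : Nat.card (centralizer ({(⟨σ ^ 2, pow_mem hσY 2⟩ : Y), ⟨τ, hτY⟩} : Set Y)) =
        4 * R.kap τ := by
      rw [← C.D.card_centralizer_pair R]
      refine Nat.card_congr ⟨fun x => ⟨((x : Y) : G), ?_⟩, fun x => ⟨⟨x, ?_⟩, ?_⟩,
        fun _ => rfl, fun _ => rfl⟩
      · have := x.2
        simp only [mem_centralizer_iff, Set.mem_insert_iff, Set.mem_singleton_iff, forall_eq_or_imp,
          forall_eq] at this ⊢
        exact ⟨congrArg Subtype.val this.1, congrArg Subtype.val this.2⟩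
      · exact hJY (centralizer_le (by intro z hz; exact Or.inl hz) x.2)
      · have := x.2
        simp only [mem_centralizer_iff, Set.mem_insert_iff, Set.mem_singleton_iff, forall_eq_or_imp,
          forall_eq] at this ⊢
        exact ⟨Subtype.ext this.1, Subtype.ext this.2⟩
    rw [h4] at h3
    have h5 : 4 * Rb.kap t = 4 * 1 :=
      Nat.eq_of_mul_eq_mul_right (by omega : 0 < R.kap τ) (by rw [h3, mul_one])
    omega
  obtain ⟨k, hk, hN, hG⟩ := outer_equations Db Rb hCb hkapb φb hφbσ hφbτ h0b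
  rw [hKb] at hN hG
  refine ⟨Y, k, _, Nat.card (Y ⧸ A'), hk, Int.natCast_pos.2 Nat.card_pos, hN, ?_, hG, ?_, hYN, hJY,
    hrel2, hXY⟩
  · have hinv : ∀ a ∈ A, σ * τ * a * (σ * τ)⁻¹ = a⁻¹ := fun a ha' => by
      rw [show σ * τ * a * (σ * τ)⁻¹ = σ * (τ * a * τ⁻¹) * σ⁻¹ by group, hτA a ha', hσA a ha']
    have h1 : Nat.card (centralizer ({s * t} : Set (Y ⧸ A'))) ∣
        8 * (R.kap τ * R.kap (σ * τ)) := by
      rw [show s * t = f ⟨σ * τ, mul_mem hσY hτY⟩ by rw [← map_mul]; rfl, hliftinv _ hinv]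
      refine (card_centralizer_sub_dvd Y _).trans (dvd_of_eq ?_)
      rw [← H26.card_centralizer_eq_of_isConj C.conj₁]
      haveI := Fintype.ofFinite G
      have h2 := C.D.card_centralizer R
      change Nat.card (centralizer ({σ ^ 2} : Set G)) = _ at h2
      rw [h2, C.card_K]
      norm_num
    exact_mod_cast h1
  · have h := Subgroup.card_eq_card_quotient_mul_card_subgroup A'
    rw [← hA'card, show f.ker = A' from QuotientGroup.ker_mk' A']
    exact_mod_cast h

end Config

end Cfsg.Agent.H69.Small4
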